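import Cfsg.Agent.E82.F5.Row44S
import Cfsg.Agent.ClassicalGeometry.Sp4Graph

/-!
# S3369: the graph automorphism of `Sp₄(4)` exchanges the two orientations of `CaseB` (helper40)
-/

set_option autoImplicit false
set_option maxRecDepth 100000
set_option maxHeartbeats 200000

namespace Cfsg.Agent.E82.F5

open Cfsg.Agent.H939.L64 (E2)
open Cfsg.Agent.ClassicalGeometry.Sp4Graph (graphEquiv mn)
open Cfsg.Agent.E82.Grp

theorem Sit.aut {S : Type} [Group S] {f : S →* E2} {H : Subgroup E2} (hS : Sit f H) (e : S ≃* S) :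
    Sit (f.comp e.toMonoidHom) H := by
  refine ⟨hS.co, hS.inj.comp e.injective, fun s => hS.le _, fun g hg => ?_, fun g hg hc => ?_⟩
  · obtain ⟨τ, hτ⟩ := hS.nor g hg
    refine ⟨(e.trans τ).trans e.symm, fun s => ?_⟩
    show f (e (e.symm (τ (e s)))) = g * f (e s) * g⁻¹
    rw [MulEquiv.apply_symm_apply, hτ]
  · refine hS.tri g hg fun s => ?_
    have := hc (e.symm s)
    rwa [MonoidHom.comp_apply, MulEquiv.coe_toMonoidHom, MulEquiv.apply_symm_apply] at this

theorem charF4 : CharP Cfsg.Agent.Lib.FieldFour.F4 2 := CharTwo.of_one_ne_zero_of_two_eq_zero (by decide) (by decide)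

attribute [local instance] charF4

/-- the graph automorphism -/
noncomputable def gam : S44 ≃* S44 := graphEquiv Cfsg.Agent.Lib.FieldFour.F4

theorem graph_G {a b : ℕ} (ha : okb a = true) (hb : okb b = true) (h : mn (mt a) = mt b) :
    gam (G a) = G b :=
  Subtype.ext (by
    show mn (G a).1 = (G b).1
    rw [coe_G (ok_of ha), coe_G (ok_of hb), h])

theorem graph_x0 : IsConj (gam (ph 0 x5)) (ph 2 x5 ^ 4) := by
  rw [ph_x, ph_x, graph_G (b := 1125924035) (by decide +kernel) (by decide +kernel) (by decide +kernel),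
    pow_eq (b := 3425944625) 4 (by decide +kernel)]
  exact isConj 2439288425 (by decide +kernel)

theorem graph_x2 : IsConj (gam (ph 2 x5)) (ph 0 x5 ^ 3) := by
  rw [ph_x, ph_x, graph_G (b := 4208901802) (by decide +kernel) (by decide +kernel) (by decide +kernel),
    pow_eq (b := 1073808403) 3 (by decide +kernel)]
  exact isConj 3342782268 (by decide +kernel)

theorem cf_pow' (f : S44 →* E2) (i : Fin 4) {k : ℕ} (hk : ¬ 5 ∣ k) : cf (f (ph i x5 ^ k)) = cf (f (ph i x5)) :=
  (congrArg cf (map_pow f _ k)).trans (cf_pow (x_pow (φ := ph) f i) hk)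

theorem cf_gam0 (f : S44 →* E2) : cf ((f.comp gam.toMonoidHom) (ph 0 x5)) = cf (f (ph 2 x5)) :=
  (cf_isConj graph_x0 f).trans (cf_pow' f 2 (by norm_num))

theorem cf_gam2 (f : S44 →* E2) : cf ((f.comp gam.toMonoidHom) (ph 2 x5)) = cf (f (ph 0 x5)) :=
  (cf_isConj graph_x2 f).trans (cf_pow' f 0 (by norm_num))

/-- **the second orientation follows from the first** -/
theorem caseB_swp (hB : CaseB ph) : CaseB (swp ph) := by
  intro f H hS h0 h2
  have k0 : cf (f (ph 2 x5)) = 68 := h0
  have k2 : cf (f (ph 0 x5)) = 48 := h2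
  exact hB _ H (Sit.aut hS gam) ((cf_gam0 f).trans k0) ((cf_gam2 f).trans k2)

/-- **the first orientation follows from the second** -/
theorem caseB_of_swp (hB : CaseB (swp ph)) : CaseB ph := by
  intro f H hS h0 h2
  have k0 : cf ((f.comp gam.toMonoidHom) (swp ph 0 x5)) = 68 := (cf_gam2 f).trans h0
  have k2 : cf ((f.comp gam.toMonoidHom) (swp ph 2 x5)) = 48 := (cf_gam0 f).trans h2
  exact hB _ H (Sit.aut hS gam) k0 k2

/-- **the row `Sp₄(4)`** modulo `CaseB` in one orientation -/
theorem rowSp44_of (hB : CaseB ph) : ROW S44 := rowSp44 hB (caseB_swp hB)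

theorem rowSp44_of' (hB : CaseB (swp ph)) : ROW S44 := rowSp44 (caseB_of_swp hB) hB

end Cfsg.Agent.E82.F5
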