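import Cfsg.Agent.E82.F5.Row44
import Cfsg.Agent.E82.Grp.G44
import Cfsg.Agent.E82.Small

/-!
# S3369: the row `Sp₄(4)` modulo the box `CaseB` in both orientations (helper40)
-/

set_option autoImplicit false

namespace Cfsg.Agent.E82.F5

/-- **the row `Sp₄(4)`** modulo `CaseB` -/
theorem rowSp44 (hB : CaseB Grp.ph) (hB' : CaseB (swp Grp.ph)) : ROW (Sp44 Cfsg.Agent.Lib.FieldFour.F4) :=
  row44 (small_Sp44 Cfsg.Agent.Lib.FieldFour.F4.card) (out2_Sp44 Cfsg.Agent.Lib.FieldFour.F4.card) Grp.d44 Grp.d44' hB hB'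

end Cfsg.Agent.E82.F5
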